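import Cfsg.Agent.H86.Basic

/-! Class sizes and coprime indices. -/

set_option autoImplicit false

namespace Cfsg.Agent.H90.SingularClass

variable {G : Type*} [Group G]

/-- The size of the class of `x`. -/
noncomputable def cs (x : G) : ℕ := (Subgroup.centralizer ({x} : Set G)).index

theorem mem_cent {x g : G} : g ∈ Subgroup.centralizer ({x} : Set G) ↔ Commute g x :=
  Subgroup.mem_centralizer_singleton_iff

theorem cs_conj (g x : G) : cs (g * x * g⁻¹) = cs x := by
  rw [cs, cs, ← H86.ncard_carrier_eq_index, ← H86.ncard_carrier_eq_index,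
    ConjClasses.mk_eq_mk_iff_isConj.mpr (isConj_iff.mpr ⟨g, rfl⟩ : IsConj x (g * x * g⁻¹))]

theorem cs_dvd_of_commute_imp {x y : G} (h : ∀ g, Commute g y → Commute g x) : cs x ∣ cs y :=
  Subgroup.index_dvd_of_le fun g hg => mem_cent.mpr (h g (mem_cent.mp hg))

theorem cs_pow_dvd (y : G) (k : ℕ) : cs (y ^ k) ∣ cs y :=
  cs_dvd_of_commute_imp fun _ hg => hg.pow_right k

theorem cs_pos [Finite G] (x : G) : cs x ≠ 0 := Subgroup.index_ne_zero_of_finite

theorem cs_ne_one {x : G} (h : x ∉ Subgroup.center G) : cs x ≠ 1 := fun e =>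
  h (Subgroup.mem_center_iff.mpr fun g =>
    mem_cent.mp ((Subgroup.index_eq_one.mp e).ge (Subgroup.mem_top g)))

/-- Subgroups of coprime indices factorise the group. -/
theorem exists_mul [Finite G] {H K : Subgroup G} (h : Nat.Coprime H.index K.index) (g : G) :
    ∃ a ∈ H, ∃ b ∈ K, g = a * b := by
  set o : G ⧸ K := QuotientGroup.mk 1
  have hst : MulAction.stabilizer H o = K.subgroupOf H := by
    ext a
    rw [MulAction.mem_stabilizer_iff, Subgroup.mem_subgroupOf]
    change (QuotientGroup.mk ((a : G) * 1) : G ⧸ K) = QuotientGroup.mk 1 ↔ _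
    rw [mul_one, QuotientGroup.eq, mul_one, inv_mem_iff]
  have hcard : (MulAction.orbit H o).ncard = K.relIndex H := by
    rw [← MulAction.index_stabilizer, hst]; rfl
  have hle : K.index ∣ K.relIndex H := by
    have h1 : K.index ∣ (H ⊓ K).index := Subgroup.index_dvd_of_le inf_le_right
    rw [← Subgroup.relIndex_mul_index (inf_le_left : H ⊓ K ≤ H), Subgroup.inf_relIndex_left] at h1
    exact h.symm.dvd_of_dvd_mul_right h1
  have huniv : MulAction.orbit H o = Set.univ := by
    refine Set.eq_of_subset_of_ncard_le (Set.subset_univ _) ?_ (Set.toFinite _)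
    rw [hcard, Set.ncard_univ, ← Subgroup.index]
    exact Nat.le_of_dvd (Nat.pos_of_ne_zero Subgroup.index_ne_zero_of_finite) hle
  obtain ⟨⟨a, ha⟩, hag⟩ := huniv.ge (Set.mem_univ (QuotientGroup.mk g : G ⧸ K))
  change (QuotientGroup.mk (a * 1) : G ⧸ K) = QuotientGroup.mk g at hag
  rw [mul_one, QuotientGroup.eq] at hag
  exact ⟨a, ha, _, hag, (mul_inv_cancel_left a g).symm⟩

/-- With coprime class sizes, conjugates of commuting elements commute. -/
theorem commute_conj [Finite G] {x z : G} (hxz : Commute x z) (hcop : (cs x).Coprime (cs z)) (g : G) :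
    Commute x (g * z * g⁻¹) := by
  obtain ⟨a, ha, b, hb, rfl⟩ := exists_mul hcop g
  rw [mem_cent] at ha hb
  rw [show a * b * z * (a * b)⁻¹ = a * (b * z * b⁻¹) * a⁻¹ by group, hb.eq, mul_inv_cancel_right]
  have h1 := (Commute.conj_iff a).mpr hxz
  rwa [ha.eq, mul_inv_cancel_right] at h1

/-- A `p`-subgroup of a subgroup of index prime to `p` lies in a Sylow subgroup contained in it. -/
theorem exists_sylow_le [Finite G] {p : ℕ} [Fact p.Prime] {H Q : Subgroup G} (hi : ¬ p ∣ H.index)
    (hQ : IsPGroup p Q) (hQH : Q ≤ H) : ∃ P : Sylow p G, Q ≤ P ∧ (P : Subgroup G) ≤ H := by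
  obtain ⟨S, hS⟩ := (hQ.comap_subtype (K := H)).exists_le_sylow
  set S' := (S : Subgroup H).map H.subtype
  have hS' : IsPGroup p S' := S.isPGroup'.map _
  have hndvd : ¬ p ∣ S'.index := by
    rw [Subgroup.index_map_subtype]
    exact fun h => ((Fact.out : p.Prime).dvd_mul.mp h).elim S.not_dvd_index hi
  refine ⟨hS'.toSylow hndvd, fun q hq => ?_, Subgroup.map_subtype_le _⟩
  exact ⟨⟨q, hQH hq⟩, hS (Subgroup.mem_subgroupOf.mpr hq), rfl⟩

end Cfsg.Agent.H90.SingularClass
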